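import Cfsg.Agent.BSW.HiiMain
import Cfsg.Agent.PSL2Rec.PrimeDeg
import Cfsg.Agent.OddOrderHyp

/-!
# The normaliser condition: extensions by `2`-groups
-/

set_option autoImplicit false
set_option linter.unusedSectionVars false

namespace Cfsg.Agent.BSW

open Subgroup Cfsg.Agent.Local Cfsg.Agent.CIT MulAction PSL2Rec

universe u

variable {G : Type u} [Group G] [Finite G]

theorem Hii.stab_comm (h : Hii G) {Ω : Type*} [MulAction G Ω] {a b : Ω} {P : Subgroup G} {w : G}
    (hZ : ZData G a b P w) (hP : P ≠ ⊥) (he : Even (Nat.card ↥(stabilizer G a ⊓ stabilizer G b))) :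
    ∀ k ∈ stabilizer G a ⊓ stabilizer G b, ∀ l ∈ stabilizer G a ⊓ stabilizer G b,
      k * l = l * k := by
  obtain ⟨z, hz, z1, zz⟩ := ZData.exists_involution he
  obtain ⟨x0, hx0, x1⟩ := (bot_or_exists_ne_one P).resolve_left hP
  have uniq : ∀ s ∈ stabilizer G a ⊓ stabilizer G b, s ≠ 1 → s * s = 1 → s = z := fun s hs s1 ss => by
    have h1 := hZ.semi (z⁻¹ * s) (mul_mem (inv_mem hz) hs) x0 hx0 (by
      rw [show z⁻¹ * s * x0 * (z⁻¹ * s)⁻¹ = z⁻¹ * (s * x0 * s⁻¹) * z by group, hZ.inverts hs s1 ss x0 hx0,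
        ← hZ.inverts hz z1 zz x0 hx0]; group)
    exact (inv_mul_eq_one.mp (h1.resolve_right x1)).symm
  have hR : x0 • b ≠ b := fun e => x1 (hZ.P_free x0 hx0 e)
  obtain ⟨g, ga, gb⟩ := hZ.exists_pair (x := x0 • b) (y := z • x0 • b)
    fun e => z1 (hZ.three z _ (hZ.smul_b_ne hx0) hR hz.1 hz.2 e.symm)
  obtain ⟨r, hr⟩ : ∃ r, r = g⁻¹ * z * g := ⟨_, rfl⟩
  have rr : r * r = 1 := by simpa [hr] using conj_sq (g := g⁻¹) zz
  have ri := inv_eq_of_mul_eq_one_right rr
  have ra : r • a = b := by rw [hr, mul_smul, mul_smul, ga, ← gb, inv_smul_smul]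
  have rb : r • b = a := by rw [← ra, ← mul_smul, rr, one_smul]
  have nr : ∀ x ∈ stabilizer G a ⊓ stabilizer G b, r * x * r⁻¹ ∈ stabilizer G a ⊓ stabilizer G b :=
    fun x hx => mem_inf.mpr ⟨by
      rw [mem_stabilizer_iff, ri, mul_smul, mul_smul, ra, show x • b = b from hx.2, rb],
      by rw [mem_stabilizer_iff, ri, mul_smul, mul_smul, rb,
        show x • a = a from hx.1, ra]⟩
  have zc : ∀ x ∈ stabilizer G a ⊓ stabilizer G b, x * z = z * x := fun x hx =>
    mul_inv_eq_iff_eq_mul.mp (uniq _ (mul_mem (mul_mem hx hz) (inv_mem hx)) (conj_ne_one z1)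
      (conj_sq zz))
  have rz : r * z = z * r := mul_inv_eq_iff_eq_mul.mp (uniq _ (nr z hz) (conj_ne_one z1) (conj_sq zz))
  have cr : ∀ x ∈ stabilizer G a ⊓ stabilizer G b, x * r = r * x → x * x = 1 := fun x hx hc => by
    have f1 : r • g⁻¹ • a = g⁻¹ • a := by
      rw [hr, mul_smul, mul_smul, smul_inv_smul, show z • a = a from hz.1]
    have f2 : r • g⁻¹ • b = g⁻¹ • b := by
      rw [hr, mul_smul, mul_smul, smul_inv_smul, show z • b = b from hz.2]
    have n0 : g⁻¹ • a ≠ g⁻¹ • b := fun e => hZ.ne (smul_left_cancel _ e)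
    have f3 : ∀ c : Ω, r • c = c → x • c = g⁻¹ • a ∨ x • c = g⁻¹ • b := fun c hc' => by
      by_contra hn
      rw [not_or] at hn
      exact inv_conj_ne_one z1 (hr ▸ hZ.noThree r _ _ (x • c) n0 (Ne.symm hn.2) (Ne.symm hn.1) f1 f2
        (by rw [← mul_smul, ← hc, mul_smul, hc']))
    refine hZ.three _ (g⁻¹ • a) (fun e => hZ.ne (by rw [← ra, ← e, f1])) (fun e => hZ.ne (by
      rw [← rb, ← e, f1])) (mul_mem hx hx).1 (mul_mem hx hx).2 ?_
    rw [mul_smul]
    rcases f3 _ f1 with e | e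
    · rw [e, e]
    · rw [e]
      exact (f3 _ f2).resolve_right fun e' => n0 (smul_left_cancel x (e.trans e'.symm))
  refine Char.comm_of_inverts (v := r) fun x hx => ?_
  by_cases hx1 : x = 1
  · simp [hx1]
  have h1 : r * x * r⁻¹ ∈ zpowers x := (h z x z1 zz hx1 (zc x hx).symm (by
    refine (Nat.even_or_odd (orderOf x)).symm.imp_right fun h2 => ?_
    obtain ⟨s, hs, s1, ss⟩ := exists_inv h2
    exact uniq s (zpowers_le.mpr hx hs) s1 ss ▸ hs) r).mpr rz
  have h2 := comm_of_mem h1 rfl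
  rw [eq_inv_iff_mul_eq_one]
  by_contra h3
  have h4 := uniq _ (mul_mem (nr x hx) hx) h3 (cr _ (mul_mem (nr x hx) hx) (by
    rw [ri] at h2 ⊢
    rw [h2, mul_assoc, mul_assoc, rr, mul_one, ← h2]
    simp only [← mul_assoc, rr, one_mul]))
  have h5 : r * x * (r * x) = z := by rw [← h4, ri]; group
  have h6 := mul_mem (inv_mem (mem_zpowers (r * x))) ((h z (r * x) z1 zz (by
    rintro e; rw [e, one_mul] at h5; exact z1 h5.symm) (by rw [← h5]; group)
    (Or.inr (h5 ▸ mul_mem (mem_zpowers _) (mem_zpowers _))) x).mpr (zc x hx))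
  rw [show (r * x)⁻¹ * (x * (r * x) * x⁻¹) = x⁻¹ * (r⁻¹ * x * r⁻¹⁻¹) by group, ri] at h6
  have h7 := comm_of_mem h6 rfl
  have h8 := comm_of_mem (mul_mem (inv_mem (mem_zpowers x)) h1) rfl
  have h9 := mul_mem (inv_mem hx) (nr x hx)
  have h10 := cr _ h9 (by
    rw [← mul_left_inj x, mul_assoc _ r x, h7, mul_assoc r _ x, h8, ← mul_assoc r x])
  have h11 : x * r = r * x → False := fun e => h3 (by rw [← e, mul_inv_cancel_right, cr x hx e])
  by_cases h12 : x⁻¹ * (r * x * r⁻¹) = 1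
  · exact h11 (by rwa [inv_mul_eq_one, eq_mul_inv_iff_mul_eq] at h12)
  · have h13 := uniq _ h9 h12 h10
    rw [inv_mul_eq_iff_eq_mul] at h13
    rw [h13, mul_assoc, ← zc x hx, ← mul_assoc, mul_eq_right] at h4
    exact h11 (uniq x hx hx1 h4 ▸ rz.symm)

theorem SylowTI.trans {p : ℕ} [Fact p.Prime] (h : SylowTI p G) {P Q R : Sylow p G}
    (hn : Nat.card (Sylow p G) = Nat.card P + 1) (hQ : Q ≠ P) (hR : R ≠ P) :
    ∃ x ∈ (P : Subgroup G), x • Q = R := by
  classical
  let f : P → {Q : Sylow p G // Q ≠ P} := fun x => ⟨(x : G) • Q, fun e => hQ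
    (smul_left_cancel (x : G) (e.trans (smul_self_of_mem x.2).symm))⟩
  have hf : Function.Injective f := fun x y e => by
    have e' : (x : G) • Q = (y : G) • Q := congrArg Subtype.val e
    have := h.eq_one_of_smul_eq hQ (mul_mem (inv_mem y.2) x.2)
      (by rw [mul_smul, e', inv_smul_smul])
    exact Subtype.ext (inv_mul_eq_one.1 this).symm
  have := Fintype.ofFinite (Sylow p G)
  obtain ⟨x, hx⟩ := ((Nat.bijective_iff_injective_and_card f).2 ⟨hf, by
    rw [Nat.card_eq_fintype_card (α := {Q : Sylow p G // Q ≠ P}), Fintype.card_subtype_compl,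
      Fintype.card_subtype_eq, ← Nat.card_eq_fintype_card, hn, Nat.add_sub_cancel]
    rfl⟩).2 ⟨R, hR⟩
  exact ⟨x, x.2, congrArg Subtype.val hx⟩

theorem Hii.ext_odd (h : Hii G) (hF : NoNil G) {F : Type*} [Field F] [Fintype F] {p m : ℕ}
    (hp : p.Prime) (hq : Fintype.card F = p ^ m) (ho : Odd (p ^ m)) (h3 : 3 < p ^ m)
    (hN : NoMul p (oTwo G))
    (e : Nonempty (oTwo G ≃* Matrix.ProjectiveSpecialLinearGroup (Fin 2) F)) :
    Nonempty (G ≃* Matrix.ProjectiveSpecialLinearGroup (Fin 2) F) ∨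
      Nonempty (G ≃* Matrix.ProjGenLinGroup (Fin 2) F) := by
  have := Fact.mk hp
  have : Fact (Nat.Prime 2) := ⟨Nat.prime_two⟩
  obtain ⟨e⟩ := e
  have hm : m ≠ 0 := by rintro rfl; simp at h3
  have hpo : Odd p := (Nat.odd_pow_iff hm).mp ho
  obtain ⟨t, ht⟩ := id ho
  have hL : Nat.card (oTwo G) = p ^ m * t * (p ^ m + 1) := by
    have h1 := card_psl2 (F := F)
    rw [hq, Nat.gcd_eq_left (by omega), ← Nat.card_congr e.toEquiv,
      show p ^ m - 1 = 2 * t by omega] at h1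
    exact Nat.eq_of_mul_eq_mul_left two_pos (by rw [h1]; ring)
  have ht' : t ∣ p ^ m - 1 := ⟨2, by omega⟩
  have mem : ∀ x : G, Odd (orderOf x) → x ∈ oTwo G := fun x hx => subset_closure hx
  have le : ∀ P : Sylow p G, (P : Subgroup G) ≤ oTwo G := fun P x hx => by
    obtain ⟨k, hk⟩ := IsPGroup.iff_orderOf.mp P.2 ⟨x, hx⟩
    exact mem x (by rw [← orderOf_coe] at hk; exact hk ▸ hpo.pow)
  have hc : ∀ P : Sylow p G, Nat.card P = p ^ m := fun P => by
    rw [← card_sylow_eq hm ht' hL (P.subtype (le P))]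
    exact (Nat.card_congr (subgroupOfEquivOfLe (le P)).toEquiv).symm
  have hne : ∀ P : Sylow p G, (P : Subgroup G) ≠ ⊥ := fun P =>
    (one_lt_card_iff_ne_bot _).mp (by have : Nat.card (P : Subgroup G) = _ := hc P; omega)
  have hT : SylowTI p G := fun P Q x x1 hP hQ => Sylow.subtype_injective (hN.sylowTI
    (P.subtype (le P)) (Q.subtype (le Q)) ⟨x, le P hP⟩ (fun e => x1 (congrArg Subtype.val e)) hP hQ)
  have hn : ∀ P : Sylow p G, Nat.card (Sylow p G) = Nat.card P + 1 := fun P => by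
    obtain ⟨P', Q', w, hZ, h1, -⟩ := hN.sylowTI.exists_zdata_of_card (fun r hr _ => hN r hr) hm ht' hL
    have h2 := Nat.card_le_card_of_injective (fun P : Sylow p G => P.subtype (le P))
      fun _ _ e => Sylow.subtype_injective e
    rw [hZ.card_points, show Nat.card (P' : Subgroup (oTwo G)) = _ from h1] at h2
    have h4 := hT.card_dvd P
    rw [hc P] at h4 ⊢
    have h5 : Nat.card (Sylow p G) ≠ 1 := fun e => by
      have := (Nat.card_eq_one_iff_unique.mp e).1
      exact hne P (hF.pgroup hp _ P.normal_of_subsingleton P.2)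
    have h6 : 0 < Nat.card (Sylow p G) := Nat.card_pos
    have := Nat.le_of_dvd (by omega) h4
    omega
  have ker : (toPermHom G (Sylow p G)).ker = ⊥ := by
    refine hF.pgroup Nat.prime_two _ inferInstance (isPGroup_of_two fun n hn' => by_contra fun h1 => ?_)
    obtain ⟨k, h2, h4⟩ := exists_prime_of_not_two h1
    have h5 := pow_mem hn' k
    generalize n ^ k = y at h2 h4 h5
    have fix : ∀ y ∈ (toPermHom G (Sylow p G)).ker, ∀ R : Sylow p G, y • R = R := fun y hy R =>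
      DFunLike.congr_fun (MonoidHom.mem_ker.mp hy) R
    obtain ⟨P⟩ : Nonempty (Sylow p G) := inferInstance
    have : Nontrivial (Sylow p G) := Finite.one_lt_card_iff_nontrivial.mp (by rw [hn P, hc P]; omega)
    obtain ⟨Q, hQ⟩ := exists_ne P
    obtain ⟨x, hx, x1⟩ := (bot_or_exists_ne_one _).resolve_left (hne P)
    have h6 := hT.eq_one_of_smul_eq hQ (mul_mem ((mem_normalizer_iff.mp
      (Sylow.smul_eq_iff_mem_normalizer.mp (fix y h5 P)) x).mp hx) (inv_mem hx)) (fix _ (by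
        simpa [mul_assoc] using mul_mem h5 (MonoidHom.normal_ker _ |>.conj_mem _ (inv_mem h5) x)) Q)
    rw [mul_inv_eq_one, mul_inv_eq_iff_eq_mul] at h6
    have h7 := congrArg Subtype.val (hN.pow_eq_one_of_commute (x := ⟨x, le P hx⟩)
      (y := ⟨y, mem y (h2.odd_of_ne_two h4)⟩) (fun e => x1 (congrArg Subtype.val e))
      (hN.pow_eq_one (P.subtype (le P)).2 hx) (Subtype.ext h6.symm))
    have y1 := ne_one_of_orderOf_eq_prime h2 rfl
    have h8 : y ∈ zpowers y ⊓ normalizer P :=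
      ⟨mem_zpowers y, Sylow.smul_eq_iff_mem_normalizer.1 (fix y h5 P)⟩
    rw [(isPGroup_zpowers_of_orderOf_eq (orderOf_eq_prime h7 y1)).inf_normalizer_sylow] at h8
    exact y1 (hT.eq_one_of_smul_eq hQ h8.2 (fix y h5 Q))
  have hB : ∀ r : ℕ, r.Prime → r ≠ p → ∀ x : G, orderOf x ≠ p * r := fun r hr hrp x hx => by
    rcases hr.eq_two_or_odd' with rfl | hro
    swap
    · exact hN r hr ⟨x, mem x (hx ▸ hpo.mul hro)⟩ (by rw [← orderOf_coe]; exact hx)
    have o1 : orderOf (x ^ p) = 2 := by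
      rw [orderOf_pow_of_dvd hp.ne_zero (hx ▸ dvd_mul_right _ _), hx, Nat.mul_div_cancel_left _ hp.pos]
    have o2 : orderOf (x ^ 2) = p := by
      rw [orderOf_pow_of_dvd two_ne_zero (hx ▸ dvd_mul_left _ _), hx, Nat.mul_div_cancel _ two_pos]
    have o : OP (x ^ p) (x ^ 2) := ⟨ne_one_of_orderOf_eq_prime Nat.prime_two o1,
      by rw [← sq]; exact orderOf_dvd_iff_pow_eq_one.mp o1.dvd, o2 ▸ hp, o2 ▸ hpo,
      (Commute.pow_pow_self x p 2).eq⟩
    generalize x ^ p = s at o o1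
    obtain ⟨P, hP⟩ := (isPGroup_zpowers_of_orderOf_eq o2).exists_le_sylow
    have : Nontrivial (P : Subgroup G) := (nontrivial_iff_ne_bot _).mpr (hne P)
    obtain ⟨c, -, hc1, hc2⟩ := LinP.exists_central_of_normal P.isPGroup' ⊤ top_ne_bot
    have h1 : ∀ g ∈ (P : Subgroup G), g * s = s * g := fun g hg =>
      (o.norm h (congrArg Subtype.val (mem_center_iff.mp hc2 ⟨_, hP (mem_zpowers _)⟩)).symm
        (fun e => ne_one_of_orderOf_eq_prime hp hc1 (Subtype.ext e)) g).mp (by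
          rw [show g * c = c * g from congrArg Subtype.val (mem_center_iff.mp hc2 ⟨g, hg⟩),
            mul_inv_cancel_right]
          exact mem_zpowers _)
    have h2 : s • P = P := Sylow.smul_eq_iff_mem_normalizer.mpr
      (centralizer_le_normalizer _ (mem_centralizer_iff.mpr h1))
    obtain ⟨Q, hQ, hPQ⟩ := IsPGroup.exists_fixed_point_of_prime_dvd_card_of_fixed_point
      (isPGroup_zpowers_of_orderOf_eq o1) (Sylow p G) (a := P) (by rw [hn P, hc P]; omega) (by
        rintro ⟨_, i, rfl⟩; exact (stabilizer G P).zpow_mem h2 i)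
    refine o.t1 (mem_bot.mp (ker ▸ MonoidHom.mem_ker.mpr (Equiv.ext fun R => ?_)))
    change s • R = R
    by_cases hR : R = P
    · rw [hR, h2]
    · obtain ⟨g, hg, rfl⟩ := SylowTI.trans hT (hn P) hPQ.symm hR
      rw [← mul_smul, ← h1 g hg, mul_smul, show s • Q = Q from hQ ⟨s, mem_zpowers s⟩]
  obtain ⟨P⟩ : Nonempty (Sylow p G) := inferInstance
  obtain ⟨Q, w, hZ⟩ := hT.exists_zdata hB P (hn P)
  have hcP : Nat.card (P : Subgroup G) = p ^ m := hc P
  rcases Nat.even_or_odd (Nat.card ↥(stabilizer G P ⊓ stabilizer G Q)) with he | he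
  · exact (hZ.recognition_of_even (hq.trans hcP.symm) (by omega) (h.stab_comm hZ (hne P) he)
      he).symm.imp And.left And.left
  · obtain ⟨k, hk⟩ := oTwo_index (G := G)
    have h1 := hZ.card_eq
    rw [← (oTwo G).card_mul_index, hL, hcP, hk, mul_right_comm, mul_assoc (p ^ m)] at h1
    rw [← Nat.eq_of_mul_eq_mul_left (by omega) (Nat.eq_of_mul_eq_mul_right (by omega) h1)] at he
    obtain rfl : k = 0 := by_contra fun h2 =>
      absurd ((Nat.odd_pow_iff h2).mp (Nat.odd_mul.mp he).2) (by decide)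
    rw [pow_zero, index_eq_one] at hk
    exact Or.inl ⟨(topEquiv.symm.trans (MulEquiv.subgroupCongr hk.symm)).trans e⟩

theorem Hii.ext_even (h : Hii G) (hF : NoNil G) {F : Type} [Field F] [Fintype F] {n : ℕ}
    (hq : Fintype.card F = 2 ^ n)
    (e : oTwo G ≃* Matrix.ProjectiveSpecialLinearGroup (Fin 2) F) : n ≤ 2 ∨
    ∃ (F : Type) (_ : Field F) (_ : Fintype F) (n : ℕ),
      Fintype.card F = 2 ^ n ∧ Nonempty (G ≃* Matrix.ProjectiveSpecialLinearGroup (Fin 2) F) := by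
  have : Fact (Nat.Prime 2) := ⟨Nat.prime_two⟩
  obtain ⟨hn, hc⟩ := card_psl2_even hq
  rw [← Nat.card_congr e.toEquiv] at hc
  have hs : ∀ x ∈ oTwo G, 2 ∣ orderOf x → x * x = 1 := fun x hx h1 => by
    have h2 : orderOf (e ⟨x, hx⟩) ∈ _ := spec_psl2_even hq ▸ Set.mem_range_self _
    rw [e.orderOf_eq, ← orderOf_coe] at h2
    have := odd_two_pow_sub_one hn
    have h3 : 0 < 2 ^ n := by positivity
    rcases h2 with h2 | h2 | h2
    · rw [← sq]; exact orderOf_dvd_iff_pow_eq_one.mp h2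
    · exact absurd (h1.trans h2) this
    · have := h1.trans h2; omega
  have hs2 : ∀ x ∈ oTwo G, Two x → x * x = 1 := fun x hx h1 => by
    obtain ⟨_ | k, hk⟩ := two_iff.mp h1
    · rw [orderOf_eq_one_iff.mp hk, mul_one]
    · exact hs x hx (hk ▸ dvd_pow_self 2 k.succ_ne_zero)
  by_cases hC : IsCIT G
  · rcases hC.ti_or_cfg (hF.pgroup Nat.prime_two) with hT | ⟨V, W, R, q, c⟩
    · obtain ⟨S, hS⟩ := exists_isSylowIn 2 (⊤ : Subgroup G)
      refine Or.inr (h.psl2_of_sc hF (hC.sc hT hS (hS.ne_bot ?_)) hS.isPGroup.isNilpotent)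
      rw [card_top]
      exact ((dvd_pow_self 2 hn).mul_right _).trans (hc ▸ card_subgroup_dvd_card _)
    · obtain ⟨v, hv, hvW⟩ := c.symm.exists_not_mem hC
      obtain ⟨w, hw, hwV⟩ := c.exists_not_mem hC
      have h1 := mul_mem (c.V_le hC hv) (c.W_le hC hw)
      rcases c.mem_or_of_sq hC h1 (hs2 _ (mul_mem (c.le_oTwo hC hv) (c.symm.le_oTwo hC hw))
        (two_of_mem c.sV.isPGroup h1)) with h2 | h2
      · exact absurd ((mul_mem_cancel_left hv).mp h2) hwV
      · exact absurd ((mul_mem_cancel_right hw).mp h2) hvW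
  obtain ⟨t, v, o⟩ := exists_op hC
  obtain ⟨S, hS, htS⟩ := exists_syl_top (two_of_sq o.tt).isPGroup
  replace htS := htS (mem_zpowers t)
  have hT := hS.inf_of_le_normalizer le_top (le_normalizer_of_normal' ⊤ (oTwo G))
  have h1 := hT.card_eq
  have hodd := odd_two_pow_sub_one (show 2 * n ≠ 0 by omega)
  rw [hc, Nat.factorization_mul (by positivity) (by omega), Finsupp.add_apply,
    Nat.prime_two.factorization_pow, Finsupp.single_eq_same, Nat.factorization_eq_zero_of_not_dvd hodd,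
    add_zero] at h1
  have sq : ∀ x ∈ S ⊓ oTwo G, x * x = 1 := fun x hx => hs2 x hx.2 (two_of_mem hT.isPGroup hx)
  have cm : ∀ x ∈ S ⊓ oTwo G, ∀ y ∈ S ⊓ oTwo G, x * y = y * x := fun x hx y hy => by
    rw [← inv_eq_of_mul_eq_one_right (sq _ (mul_mem hx hy)), mul_inv_rev,
      inv_eq_of_mul_eq_one_right (sq x hx), inv_eq_of_mul_eq_one_right (sq y hy)]
  have nv : ∀ x ∈ S ⊓ oTwo G, x * v = v * x → x = 1 := fun x hx h2 => by
    by_contra h3
    have h4 := Commute.orderOf_mul_eq_mul_orderOf_of_coprime h2 (by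
      rw [orderOf_eq_two h3 (sq x hx)]; exact Nat.coprime_two_left.mpr o.odd)
    have h5 := hs _ (mul_mem hx.2 (subset_closure o.odd)) (by
      rw [h4, orderOf_eq_two h3 (sq x hx)]; exact dvd_mul_right _ _)
    rw [mul_assoc, ← mul_assoc v, ← h2, mul_assoc, ← mul_assoc, sq x hx, one_mul] at h5
    exact o.v1 ((two_of_sq h5).eq_one o.odd)
  obtain ⟨c, hc⟩ : ∃ c, ∀ x ∈ S ⊓ oTwo G ⊓ centralizer {t}, x ∈ ({1, c} : Set G) := by
    by_cases h2 : ∃ c ∈ S ⊓ oTwo G ⊓ centralizer {t}, c ≠ 1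
    · obtain ⟨c, hc, c1⟩ := h2
      refine ⟨c, fun x hx => or_iff_not_imp_left.mpr fun x1 => ?_⟩
      have h3 := nv _ (mul_mem hx.1 hc.1) (o.mul_comm_v h (sq x hx.1)
        (mem_centralizer_singleton_iff.mp hx.2) (fun e => x1 (nv x hx.1 e)) (sq c hc.1)
        (mem_centralizer_singleton_iff.mp hc.2) fun e => c1 (nv c hc.1 e))
      rwa [← sq c hc.1, mul_left_inj] at h3
    · exact ⟨1, fun x hx => Or.inl (by_contra fun e => h2 ⟨x, hx, e⟩)⟩
  have h2 : ({1, c} : Set G).ncard ≤ 2 := (Set.ncard_insert_le _ _).trans (by simp)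
  have nt : ∀ x ∈ S ⊓ oTwo G, t * x * t⁻¹ ∈ S ⊓ oTwo G := fun x hx =>
    ⟨S.mul_mem (S.mul_mem htS hx.1) (S.inv_mem htS), oTwo_normal.conj_mem x hx.2 t⟩
  have h3 := relIndex_le_of_fun (E := S ⊓ oTwo G ⊓ centralizer {t}) (A := S ⊓ oTwo G)
    (fun x => x * (t * x * t⁻¹)) {1, c} (Set.toFinite _) (fun x hx y hy e => mem_inf.mpr
      ⟨mul_mem (inv_mem hx) hy, mem_centralizer_singleton_iff.mpr (by
        replace e : x * (t * x * t⁻¹) = y * (t * y * t⁻¹) := e
        rw [eq_comm, ← mul_inv_eq_iff_eq_mul]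
        calc _ = t * x * t⁻¹ * (t * y * t⁻¹)⁻¹ := by
              rw [inv_eq_of_mul_eq_one_right (sq x hx), inv_eq_of_mul_eq_one_right (sq _ (nt y hy))]
              group
          _ = x⁻¹ * (x * (t * x * t⁻¹)) * (t * y * t⁻¹)⁻¹ := by group
          _ = _ := by rw [e]; group)⟩)
    (fun x hx => hc _ (mem_inf.mpr ⟨mul_mem hx (nt x hx), mem_centralizer_singleton_iff.mpr (by
      conv_lhs => rw [cm x hx _ (nt x hx)]
      simp only [inv_eq_of_mul_eq_one_right o.tt, mul_assoc])⟩))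
  have h4 := Set.ncard_le_ncard (show ((S ⊓ oTwo G ⊓ centralizer {t} : Subgroup G) : Set G) ⊆ _
    from hc)
  rw [← Nat.card_coe_set_eq, SetLike.coe_sort_coe] at h4
  have h5 := card_mul_relIndex (inf_le_left : S ⊓ oTwo G ⊓ centralizer {t} ≤ _)
  rw [h1] at h5
  exact Or.inl ((Nat.pow_le_pow_iff_right one_lt_two).mp
    (h5 ▸ Nat.mul_le_mul (h4.trans h2) (h3.trans h2)))

theorem NoNil.three_lt (hF : NoNil G) [Nontrivial G] {F : Type} [Field F] [Fintype F] {n : ℕ}
    (hq : Fintype.card F = 2 ^ n) (e : G ≃* Matrix.ProjectiveSpecialLinearGroup (Fin 2) F) :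
    2 ≤ n := by
  obtain ⟨hn, hc⟩ := card_psl2_even hq
  by_contra h1
  rw [← Nat.card_congr e.toEquiv, show n = 1 by omega] at hc
  have := IsZGroup.of_squarefree (G := G) (by rw [hc]; decide +kernel)
  exact fittingSubgroup_ne_bot inferInstance (hF _ inferInstance isNilpotent_fittingSubgroup)

theorem Hii.recog (h : Hii G) (hF : NoNil G) (he : 2 ∣ Nat.card (oTwo G)) :
    ∃ (F : Type) (_ : Field F) (_ : Fintype F), 3 < Fintype.card F ∧
      (Nonempty (G ≃* Matrix.ProjectiveSpecialLinearGroup (Fin 2) F) ∨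
        Nonempty (G ≃* Matrix.ProjGenLinGroup (Fin 2) F)) := by
  have := Fintype.ofFinite (oTwo G)
  have : Nontrivial (oTwo G) := Finite.one_lt_card_iff_nontrivial.mp (Nat.le_of_dvd Nat.card_pos he)
  have : Nontrivial G := (oTwo G).subtype_injective.nontrivial
  have hL := hF.normal (oTwo G)
  rcases (h.subgroup _).main oTwo_oTwo oTwo_index_ne hL he with ⟨K, z, b, d⟩ | ⟨F, _, _, n, hq, ⟨e⟩⟩
  · obtain ⟨p, m, hp, h1, -, h2, h3⟩ := d.psl2
    have := Fact.mk hp
    have := Fintype.ofFinite (GaloisField p m)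
    have h4 := d.big
    have h5 : Fintype.card (GaloisField p m) = p ^ m := by
      rw [← Nat.card_eq_fintype_card, GaloisField.card p m (by rintro rfl; rw [pow_zero] at h1; omega)]
    exact ⟨GaloisField p m, _, _, by omega, h.ext_odd hF hp h5 (Nat.odd_iff.mpr (by omega)) (by omega)
      h2 (h3 _ h5)⟩
  rcases h.ext_even hF hq e with h1 | ⟨F, _, _, n, hq, ⟨e⟩⟩
  · obtain rfl : n = 2 := le_antisymm h1 (hL.three_lt hq e)
    have : Fact (Nat.Prime 5) := ⟨by norm_num⟩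
    have hs : ∀ x : oTwo G, orderOf x ∣ 2 ∨ orderOf x ∣ 3 ∨ orderOf x ∣ 5 := fun x => by
      have h2 : orderOf (e x) ∈ _ := spec_psl2_even hq ▸ Set.mem_range_self _
      rwa [e.orderOf_eq] at h2
    have key : ∀ p r : ℕ, p.Prime → r.Prime → ∀ x : oTwo G, orderOf x ≠ p * r := fun p r hp hr x hx => by
      rcases hs x with h2 | h2 | h2 <;> rw [hx, Nat.dvd_prime (by norm_num)] at h2 <;>
        rcases h2 with h2 | h2
      any_goals exact hp.ne_one (Nat.eq_one_of_mul_eq_one_right h2)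
      all_goals exact Nat.not_prime_mul hp.ne_one hr.ne_one (by rw [h2]; norm_num)
    have hN : NoMul 5 (oTwo G) := fun r hr => key 5 r (by norm_num) hr
    refine ⟨ZMod 5, inferInstance, inferInstance, by simp, h.ext_odd hF (p := 5) (m := 1) (by norm_num) (by simp) (by decide)
      (by norm_num) hN (recog_psl2 (by simp) 5 ?_ hN.sylowTI (fun r hr _ => hN r hr)
        fun _ r hr _ _ => key r 2 hr Nat.prime_two)⟩
    have h2 := card_psl2 (F := ZMod 5)
    rw [Nat.card_congr e.toEquiv, (card_psl2_even hq).2]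
    simp only [ZMod.card] at h2
    norm_num at h2 ⊢
    omega
  · exact ⟨F, _, _, hq ▸ (show 3 < 2 ^ 2 by norm_num).trans_le
      (Nat.pow_le_pow_right two_pos (hF.three_lt hq e)), Or.inl ⟨e⟩⟩

/-- Recognition of `PSL₂(q)` and `PGL₂(q)` by the normaliser condition. -/
theorem recog_of_hii (hFT : OddOrderThm.{u}) [Nontrivial G]
    (hss : ∀ N : Subgroup G, N.Normal → Group.IsSolvable N → N = ⊥)
    (hii : ∀ X : Subgroup G, IsCyclic X → Even (Nat.card X) → ∀ Y : Subgroup G, Y ≤ X → Y ≠ ⊥ →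
      normalizer (X : Set G) = normalizer (Y : Set G)) :
    ∃ (F : Type) (_ : Field F) (_ : Fintype F), 3 < Fintype.card F ∧
      (Nonempty (G ≃* Matrix.ProjectiveSpecialLinearGroup (Fin 2) F) ∨
        Nonempty (G ≃* Matrix.ProjGenLinGroup (Fin 2) F)) := by
  refine (hii_of hii).recog (fun N h1 h2 => hss N h1 inferInstance) (by_contra fun h1 => ?_)
  have := hFT (oTwo G) (Nat.odd_iff.mpr (by omega))
  have := solvable_of_two (isPGroup_quotient_oTwo (G := G))
  have := solvable_of_quotient (oTwo G)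
  exact top_ne_bot (hss ⊤ inferInstance inferInstance)

end Cfsg.Agent.BSW
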